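import Cfsg.Agent.R2.SL2.Lists

/-!
# Composition patterns: the statements to use (R2/SL2, helper17)

`s` is the multiset of the (highest weights `b` of the) composition factors `V_b` of a module of `PSL2(p^a)`,
`tyl p b` the sorted list of the nonzero digits of `b`.

* `patE6`, `patE6_three`, `patE6_two`, `patF4`, `patF4_three`, `patF4_two` : from the dimension and the dimensions of the
  fixed spaces of an element of order 2 / 3;
* `tyl_one`, `tyl_two`, `tyl_three` : shape of `b` from `tyl p b`; `length_tyl_le`, `tyl_eq_nil`, `tyl_of_lt`.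
-/

set_option autoImplicit false

namespace Cfsg.Agent.R2.SL2

/-- total dimension -/
def dimS (p : ℕ) (s : Multiset ℕ) : ℕ := (s.map fun b => (Bp p b).card).sum

/-- total number of the eigenvalues 1 of an element with parameter of order `n` -/
def cnS (p n : ℕ) (s : Multiset ℕ) : ℕ := (s.map fun b => cn p b n).sum

section

variable {p : ℕ} [hp : Fact p.Prime]

theorem two_sum (hp2 : p ≠ 2) (s : Multiset ℕ) (he : ∀ b ∈ s, Even b) :
    2 * (cnS p 4 s : ℤ) = dimS p s + (s.map fun b => prl t2 (tyl p b)).sum := by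
  induction s using Multiset.induction_on with
  | empty => rfl
  | cons b s ih =>
    have h1 := cn_four hp2 (he b (Multiset.mem_cons_self b s))
    have h2 := ih fun c hc => he c (Multiset.mem_cons_of_mem hc)
    unfold cnS dimS at h2 ⊢
    rw [Multiset.map_cons, Multiset.map_cons, Multiset.map_cons, Multiset.sum_cons, Multiset.sum_cons,
      Multiset.sum_cons, prl_eq, coe_tyl]
    push_cast at h2 ⊢
    linarith

theorem three_sum (hp3 : p ≠ 3) (s : Multiset ℕ) :
    3 * (cnS p 3 s : ℤ) = dimS p s + 2 * (s.map fun b => prl t3 (tyl p b)).sum := by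
  induction s using Multiset.induction_on with
  | empty => rfl
  | cons b s ih =>
    have h1 := cn_three hp3 b
    have h2 := ih
    unfold cnS dimS at h2 ⊢
    rw [Multiset.map_cons, Multiset.map_cons, Multiset.map_cons, Multiset.sum_cons, Multiset.sum_cons,
      Multiset.sum_cons, prl_eq, coe_tyl]
    push_cast at h2 ⊢
    linarith

theorem evenL_tyl (hp2 : p ≠ 2) {b : ℕ} (hb : Even b) : evenL (tyl p b) = true := by
  unfold evenL
  rw [beq_iff_eq, ← Nat.even_iff]
  have h := (even_iff hp2 b).1 hb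
  rwa [← coe_tyl, Multiset.sum_coe] at h

theorem sum_fst {A B : Type*} [AddCommMonoid A] [AddCommMonoid B] (s : Multiset ℕ) (f : ℕ → A × B) :
    (s.map f).sum = ((s.map fun b => (f b).1).sum, (s.map fun b => (f b).2).sum) := by
  induction s using Multiset.induction_on with
  | empty => rfl
  | cons b s ih =>
    rw [Multiset.map_cons, Multiset.map_cons, Multiset.map_cons, Multiset.sum_cons, Multiset.sum_cons,
      Multiset.sum_cons, ih]
    rfl

/-- **`E6`, `p ≥ 5`** -/
theorem patE6 (hp5 : 5 ≤ p) (s : Multiset ℕ) (he : ∀ b ∈ s, Even b) (hD : dimS p s = 27)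
    (h2 : cnS p 4 s = 15 ∨ cnS p 4 s = 11) (h3 : cnS p 3 s = 15 ∨ cnS p 3 s = 9) :
    ∃ w ∈ listE6, (w : Multiset (List ℕ)) = s.map (tyl p) := by
  rw [← pats_E6]
  refine exists_pats val23 evenL okE6 s (fun b hb => evenL_tyl (by omega) (he b hb)) (Or.inr (by norm_num))
    (by norm_num) hD ?_ (by rw [tys_E6]; norm_num)
  have e2 := two_sum (p := p) (by omega) s he
  have e3 := three_sum (p := p) (by omega) s
  rw [hD] at e2 e3
  rw [sum_fst]
  show okE6 ((s.map fun b => prl t2 (tyl p b)).sum, (s.map fun b => prl t3 (tyl p b)).sum) = true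
  generalize (s.map fun b => prl t2 (tyl p b)).sum = u at e2 ⊢
  generalize (s.map fun b => prl t3 (tyl p b)).sum = v at e3 ⊢
  have hu : u = 3 ∨ u = -5 := by
    rcases h2 with h | h <;> rw [h] at e2 <;> push_cast at e2 <;> omega
  have hv : v = 0 ∨ v = 9 := by
    rcases h3 with h | h <;> rw [h] at e3 <;> push_cast at e3 <;> omega
  rcases hu with rfl | rfl <;> rcases hv with rfl | rfl <;> rfl

/-- **`F4`, `p ≥ 5`** (26-dimensional module) -/
theorem patF4 (hp5 : 5 ≤ p) (s : Multiset ℕ) (he : ∀ b ∈ s, Even b) (hD : dimS p s = 26)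
    (h2 : cnS p 4 s = 14 ∨ cnS p 4 s = 10) (h3 : cnS p 3 s = 14 ∨ cnS p 3 s = 8) :
    ∃ w ∈ listF4, (w : Multiset (List ℕ)) = s.map (tyl p) := by
  rw [← pats_F4]
  refine exists_pats val23 evenL okF4 s (fun b hb => evenL_tyl (by omega) (he b hb)) (Or.inr (by norm_num))
    (by norm_num) hD ?_ (by rw [tys_F4]; norm_num)
  have e2 := two_sum (p := p) (by omega) s he
  have e3 := three_sum (p := p) (by omega) s
  rw [hD] at e2 e3
  rw [sum_fst]
  show okF4 ((s.map fun b => prl t2 (tyl p b)).sum, (s.map fun b => prl t3 (tyl p b)).sum) = true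
  generalize (s.map fun b => prl t2 (tyl p b)).sum = u at e2 ⊢
  generalize (s.map fun b => prl t3 (tyl p b)).sum = v at e3 ⊢
  have hu : u = 2 ∨ u = -6 := by
    rcases h2 with h | h <;> rw [h] at e2 <;> push_cast at e2 <;> omega
  have hv : v = -1 ∨ v = 8 := by
    rcases h3 with h | h <;> rw [h] at e3 <;> push_cast at e3 <;> omega
  rcases hu with rfl | rfl <;> rcases hv with rfl | rfl <;> rfl

/-- **`E6`, `p = 3`** -/
theorem patE6_three (hp3 : p = 3) (s : Multiset ℕ) (he : ∀ b ∈ s, Even b) (hD : dimS p s = 27)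
    (h2 : cnS p 4 s = 15 ∨ cnS p 4 s = 11) : ∃ w ∈ listE6_3, (w : Multiset (List ℕ)) = s.map (tyl p) := by
  rw [← pats_E6_3]
  refine exists_pats val23 evenL okE63 s (fun b hb => evenL_tyl (by omega) (he b hb)) (Or.inl (by omega))
    (by norm_num) hD ?_ (by rw [tys_E6_3]; norm_num)
  have e2 := two_sum (p := p) (by omega) s he
  rw [hD] at e2
  rw [sum_fst]
  show okE63 ((s.map fun b => prl t2 (tyl p b)).sum, (s.map fun b => prl t3 (tyl p b)).sum) = true
  generalize (s.map fun b => prl t2 (tyl p b)).sum = u at e2 ⊢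
  have hu : u = 3 ∨ u = -5 := by
    rcases h2 with h | h <;> rw [h] at e2 <;> push_cast at e2 <;> omega
  rcases hu with rfl | rfl <;> rfl

/-- **`F4`, `p = 3`** (26-dimensional module) -/
theorem patF4_three (hp3 : p = 3) (s : Multiset ℕ) (he : ∀ b ∈ s, Even b) (hD : dimS p s = 26)
    (h2 : cnS p 4 s = 14 ∨ cnS p 4 s = 10) : ∃ w ∈ listF4_3, (w : Multiset (List ℕ)) = s.map (tyl p) := by
  rw [← pats_F4_3]
  refine exists_pats val23 evenL okF43 s (fun b hb => evenL_tyl (by omega) (he b hb)) (Or.inl (by omega))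
    (by norm_num) hD ?_ (by rw [tys_F4_3]; norm_num)
  have e2 := two_sum (p := p) (by omega) s he
  rw [hD] at e2
  rw [sum_fst]
  show okF43 ((s.map fun b => prl t2 (tyl p b)).sum, (s.map fun b => prl t3 (tyl p b)).sum) = true
  generalize (s.map fun b => prl t2 (tyl p b)).sum = u at e2 ⊢
  have hu : u = 2 ∨ u = -6 := by
    rcases h2 with h | h <;> rw [h] at e2 <;> push_cast at e2 <;> omega
  rcases hu with rfl | rfl <;> rfl

/-- **`E6`, `p = 2`** -/
theorem patE6_two (hp2 : p = 2) (s : Multiset ℕ) (hD : dimS p s = 27)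
    (h3 : cnS p 3 s = 15 ∨ cnS p 3 s = 9) : ∃ w ∈ listE6_2, (w : Multiset (List ℕ)) = s.map (tyl p) := by
  rw [← pats_E6_2]
  refine exists_pats val23 (fun _ => true) okE62 s (fun b _ => rfl) (Or.inl (by omega))
    (by norm_num) hD ?_ (by rw [tys_E6_2]; norm_num)
  have e3 := three_sum (p := p) (by omega) s
  rw [hD] at e3
  rw [sum_fst]
  show okE62 ((s.map fun b => prl t2 (tyl p b)).sum, (s.map fun b => prl t3 (tyl p b)).sum) = true
  generalize (s.map fun b => prl t3 (tyl p b)).sum = v at e3 ⊢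
  have hv : v = 0 ∨ v = 9 := by
    rcases h3 with h | h <;> rw [h] at e3 <;> push_cast at e3 <;> omega
  rcases hv with rfl | rfl <;> rfl

/-- **`F4`, `p = 2`** (26-dimensional module) -/
theorem patF4_two (hp2 : p = 2) (s : Multiset ℕ) (hD : dimS p s = 26)
    (h3 : cnS p 3 s = 14 ∨ cnS p 3 s = 8) : ∃ w ∈ listF4_2, (w : Multiset (List ℕ)) = s.map (tyl p) := by
  rw [← pats_F4_2]
  refine exists_pats val23 (fun _ => true) okF42 s (fun b _ => rfl) (Or.inl (by omega))
    (by norm_num) hD ?_ (by rw [tys_F4_2]; norm_num)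
  have e3 := three_sum (p := p) (by omega) s
  rw [hD] at e3
  rw [sum_fst]
  show okF42 ((s.map fun b => prl t2 (tyl p b)).sum, (s.map fun b => prl t3 (tyl p b)).sum) = true
  generalize (s.map fun b => prl t3 (tyl p b)).sum = v at e3 ⊢
  have hv : v = -1 ∨ v = 8 := by
    rcases h3 with h | h <;> rw [h] at e3 <;> push_cast at e3 <;> omega
  rcases hv with rfl | rfl <;> rfl

/-! ## the shape of `b` -/

/-- digits with positions -/
theorem exists_pos (b : ℕ) : ∃ z : Multiset (ℕ × ℕ), z.map Prod.fst = typ p b ∧ (z.map Prod.snd).Nodup ∧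
    (z.map fun x => x.1 * p ^ x.2).sum = b := by
  refine rec_digits (p := p) (P := fun b => ∃ z : Multiset (ℕ × ℕ), z.map Prod.fst = typ p b ∧
    (z.map Prod.snd).Nodup ∧ (z.map fun x => x.1 * p ^ x.2).sum = b) ?_ ?_ b
  · refine ⟨0, ?_, Multiset.nodup_zero, rfl⟩
    rw [typ_zero, Multiset.map_zero]
  · rintro b hb ⟨z, hz, hn, hs⟩
    have hz' : (z.map fun x => (x.1, x.2 + 1)).map Prod.fst = typ p (b / p) := by
      rw [Multiset.map_map, ← hz]
      rfl
    have hn' : ((z.map fun x => (x.1, x.2 + 1)).map Prod.snd).Nodup := by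
      rw [Multiset.map_map]
      have h := Multiset.Nodup.map (f := fun i : ℕ => i + 1) (fun i j h => Nat.succ_injective h) hn
      rwa [Multiset.map_map] at h
    have hs' : ((z.map fun x => (x.1, x.2 + 1)).map fun x => x.1 * p ^ x.2).sum = p * (b / p) := by
      rw [Multiset.map_map]
      conv_rhs => rw [← hs, ← Multiset.sum_map_mul_left]
      refine congrArg Multiset.sum (Multiset.map_congr rfl fun x _ => ?_)
      show x.1 * p ^ (x.2 + 1) = p * (x.1 * p ^ x.2)
      ring
    rw [typ_step hp.out.one_lt hb]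
    by_cases h : b % p = 0
    · refine ⟨z.map fun x => (x.1, x.2 + 1), ?_, hn', ?_⟩
      · rw [if_pos h, zero_add, hz']
      · rw [hs']
        exact Nat.mul_div_cancel' (Nat.dvd_of_mod_eq_zero h)
    · refine ⟨(b % p, 0) ::ₘ z.map fun x => (x.1, x.2 + 1), ?_, ?_, ?_⟩
      · rw [if_neg h, Multiset.map_cons, hz', Multiset.singleton_add]
      · rw [Multiset.map_cons, Multiset.nodup_cons]
        refine ⟨?_, hn'⟩
        intro h0
        rw [Multiset.map_map] at h0
        obtain ⟨x, _, hx⟩ := Multiset.mem_map.1 h0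
        exact absurd hx (Nat.succ_ne_zero _)
      · rw [Multiset.map_cons, Multiset.sum_cons, hs', pow_zero, mul_one, add_comm, Nat.div_add_mod]

theorem tyl_mem {b d : ℕ} (h : d ∈ tyl p b) : 1 ≤ d ∧ d < p := by
  have : d ∈ typ p b := by rw [← coe_tyl]; exact h
  exact mem_typ hp.out.one_lt this

theorem tyl_eq_nil {b : ℕ} : tyl p b = [] ↔ b = 0 := by
  constructor
  · intro h
    obtain ⟨z, hz, -, hs⟩ := exists_pos (p := p) b
    rw [← coe_tyl, h] at hz
    have hz0 : z = 0 := Multiset.map_eq_zero.1 hz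
    rw [← hs, hz0]
    rfl
  · rintro rfl
    have h := coe_tyl p 0
    rw [typ_zero] at h
    exact (Multiset.coe_eq_zero _).1 h

theorem tyl_one {b d : ℕ} (h : tyl p b = [d]) : ∃ i, b = d * p ^ i := by
  obtain ⟨z, hz, -, hs⟩ := exists_pos (p := p) b
  rw [← coe_tyl, h] at hz
  obtain ⟨x, rfl, hx⟩ := Multiset.map_eq_singleton.1 (hz.trans rfl : z.map Prod.fst = {d})
  refine ⟨x.2, ?_⟩
  rw [← hs, Multiset.map_singleton, Multiset.sum_singleton, hx]

theorem tyl_two {b c d : ℕ} (h : tyl p b = [c, d]) : ∃ i j, i ≠ j ∧ b = c * p ^ i + d * p ^ j := by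
  obtain ⟨z, hz, hn, hs⟩ := exists_pos (p := p) b
  rw [← coe_tyl, h] at hz
  obtain ⟨x, hx, rfl, hz2⟩ := (Multiset.map_eq_cons Prod.fst z _ c).2 (hz.trans rfl : z.map Prod.fst = c ::ₘ {d})
  obtain ⟨y, hy, rfl⟩ := Multiset.map_eq_singleton.1 hz2
  have hzz : z = x ::ₘ {y} := by rw [← hy, Multiset.cons_erase hx]
  rw [hzz] at hn hs
  refine ⟨x.2, y.2, ?_, ?_⟩
  · rw [Multiset.map_cons, Multiset.map_singleton, Multiset.nodup_cons, Multiset.mem_singleton] at hn
    exact hn.1
  · rw [← hs]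
    rfl

theorem tyl_three {b c d e : ℕ} (h : tyl p b = [c, d, e]) :
    ∃ i j k, i ≠ j ∧ i ≠ k ∧ j ≠ k ∧ b = c * p ^ i + d * p ^ j + e * p ^ k := by
  obtain ⟨z, hz, hn, hs⟩ := exists_pos (p := p) b
  rw [← coe_tyl, h] at hz
  obtain ⟨x, hx, rfl, hz2⟩ := (Multiset.map_eq_cons Prod.fst z _ c).2 (hz.trans rfl : z.map Prod.fst = c ::ₘ d ::ₘ {e})
  obtain ⟨y, hy, rfl, hz3⟩ := (Multiset.map_eq_cons Prod.fst (z.erase x) _ d).2 hz2
  obtain ⟨u, hu, rfl⟩ := Multiset.map_eq_singleton.1 hz3
  have hzz : z = x ::ₘ y ::ₘ {u} := by rw [← hu, Multiset.cons_erase hy, Multiset.cons_erase hx]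
  rw [hzz] at hn hs
  refine ⟨x.2, y.2, u.2, ?_, ?_, ?_, ?_⟩
  · rw [Multiset.map_cons, Multiset.nodup_cons] at hn
    rintro h
    exact hn.1 (Multiset.mem_map.2 ⟨y, Multiset.mem_cons_self _ _, h.symm⟩)
  · rw [Multiset.map_cons, Multiset.nodup_cons] at hn
    rintro h
    exact hn.1 (Multiset.mem_map.2 ⟨u, Multiset.mem_cons_of_mem (Multiset.mem_singleton_self _), h.symm⟩)
  · rw [Multiset.map_cons, Multiset.nodup_cons, Multiset.map_cons, Multiset.nodup_cons] at hn
    rintro h
    exact hn.2.1 (Multiset.mem_map.2 ⟨u, Multiset.mem_singleton_self _, h.symm⟩)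
  · rw [← hs]
    rw [Multiset.map_cons, Multiset.map_cons, Multiset.map_singleton, Multiset.sum_cons, Multiset.sum_cons,
      Multiset.sum_singleton, add_assoc]

theorem length_tyl_le {b a : ℕ} (h : b < p ^ a) : (tyl p b).length ≤ a := by
  have h1 : (tyl p b).length = (typ p b).card := by rw [← coe_tyl, Multiset.coe_card]
  rw [h1]
  unfold typ
  rw [Multiset.coe_card]
  exact (List.length_filter_le _ _).trans (Nat.digits_length_le_iff hp.out.one_lt b |>.2 h)

theorem tyl_of_lt {b : ℕ} (h0 : b ≠ 0) (h : b < p) : tyl p b = [b] := by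
  have h1 : typ p b = {b} := by
    rw [typ_step hp.out.one_lt h0, Nat.mod_eq_of_lt h, if_neg h0, Nat.div_eq_of_lt h, typ_zero, add_zero]
  unfold tyl
  rw [h1, Multiset.sort_singleton]

theorem pow_le_of_mem {b i d : ℕ} {z : Multiset (ℕ × ℕ)} (hz : z.map Prod.fst = typ p b)
    (hs : (z.map fun x => x.1 * p ^ x.2).sum = b) (h : (d, i) ∈ z) : p ^ i ≤ b := by
  have h1 : d ∈ typ p b := hz ▸ Multiset.mem_map_of_mem Prod.fst h
  have h2 := (mem_typ hp.out.one_lt h1).1
  have h3 : d * p ^ i ≤ b := by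
    rw [← hs]
    exact Multiset.le_sum_of_mem (Multiset.mem_map_of_mem (fun x : ℕ × ℕ => x.1 * p ^ x.2) h)
  exact le_trans (Nat.le_mul_of_pos_left _ h2) h3

end

end Cfsg.Agent.R2.SL2
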