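import Cfsg.Agent.R2.SL2.Pat
import Cfsg.Agent.R2.H28.SL2.Mult

/-!
# From the multiplicity functions of helper28 (`IsMult`) to the composition patterns (R2/SL2, helper17)

* `ms p a n` : the multiset of composition weights of the multiplicity function `n`;
* `ev_four`, `ev_three` : dimension of the fixed space of the elements `g4`, `g3` of order 4, 3 of `SL2(F)`;
* `isMult_patE6`, `isMult_patE6_two`, `isMult_patE6_three`, `isMult_patF4`, ... : the patterns.
-/

set_option autoImplicit false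
set_option linter.unusedSectionVars false

namespace Cfsg.Agent.R2.SL2

open Matrix Cfsg.Agent.H943.SL2Rel Cfsg.Agent.H943.SL2Mod Cfsg.Agent.H943.RepAdd Cfsg.Agent.R2.H28.SL2
open Cfsg.Agent.H179.SLC (IsSS isSS_of_trace)

/-- the multiset of the composition weights -/
def ms (p a : ℕ) (n : ℕ → ℕ) : Multiset ℕ := ∑ b ∈ Finset.range (p ^ a), n b • ({b} : Multiset ℕ)

theorem mem_ms {p a : ℕ} {n : ℕ → ℕ} {b : ℕ} : b ∈ ms p a n ↔ b < p ^ a ∧ n b ≠ 0 := by
  unfold ms
  rw [Multiset.mem_sum]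
  constructor
  · rintro ⟨c, hc, h⟩
    rw [Multiset.mem_nsmul] at h
    obtain rfl := Multiset.mem_singleton.1 h.2
    exact ⟨Finset.mem_range.1 hc, h.1⟩
  · rintro ⟨h1, h2⟩
    exact ⟨b, Finset.mem_range.2 h1, by rw [Multiset.mem_nsmul]; exact ⟨h2, Multiset.mem_singleton_self b⟩⟩

theorem sum_ms (p a : ℕ) (n : ℕ → ℕ) (f : ℕ → ℕ) :
    ((ms p a n).map f).sum = ∑ b ∈ Finset.range (p ^ a), n b * f b := by
  unfold ms
  rw [← Multiset.coe_mapAddMonoidHom, map_sum, ← Multiset.coe_sumAddMonoidHom, map_sum]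
  refine Finset.sum_congr rfl fun b _ => ?_
  rw [map_nsmul, map_nsmul, Multiset.coe_mapAddMonoidHom, Multiset.coe_sumAddMonoidHom, Multiset.map_singleton,
    Multiset.sum_singleton, smul_eq_mul]

theorem count_ms {p a : ℕ} {n : ℕ → ℕ} (b : ℕ) : (ms p a n).count b = if b < p ^ a then n b else 0 := by
  unfold ms
  rw [Multiset.count_sum']
  simp only [Multiset.count_nsmul, Multiset.count_singleton, mul_ite, mul_one, mul_zero]
  rw [Finset.sum_ite_eq]
  simp only [Finset.mem_range]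

/-- the number of composition factors of type `t` -/
theorem count_map_ms {p a : ℕ} {n : ℕ → ℕ} (t : List ℕ) :
    ((ms p a n).map (tyl p)).count t = ∑ b ∈ (Finset.range (p ^ a)).filter fun b => tyl p b = t, n b := by
  unfold ms
  rw [← Multiset.coe_mapAddMonoidHom, map_sum, Multiset.count_sum', Finset.sum_filter]
  refine Finset.sum_congr rfl fun b _ => ?_
  rw [map_nsmul, Multiset.coe_mapAddMonoidHom, Multiset.map_singleton, Multiset.count_nsmul,
    Multiset.count_singleton]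
  by_cases h : t = tyl p b
  · rw [if_pos h, if_pos h.symm, mul_one]
  · rw [if_neg h, if_neg (Ne.symm h), mul_zero]

/-- the element of order 4 of `SL2` -/
def g4 (F : Type*) [Field F] : SpecialLinearGroup (Fin 2) F := ⟨!![0, -1; 1, 0], by simp [Matrix.det_fin_two]⟩

/-- the element of order 3 of `SL2` -/
def g3 (F : Type*) [Field F] : SpecialLinearGroup (Fin 2) F := ⟨!![0, -1; 1, -1], by simp [Matrix.det_fin_two]⟩

variable {k : Type*} [Field k] [DecidableEq k] {F : Type*} [Field F] [Fintype F] [DecidableEq F] (ι : F →+* k)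
variable {p : ℕ} [hp : Fact p.Prime] [CharP k p]

theorem Bf_eq (b : ℕ) : Bf k b = Bp p b := by
  ext m
  rw [mem_Bf, mem_Bp]
  show (m ≤ b ∧ ((b.choose m : ℕ) : k) ≠ 0) ↔ _
  rw [Ne, CharP.cast_eq_zero_iff k p]

theorem mf_eq_cn (b : ℕ) {ζ : k} (hζ : ζ ≠ 0) : mf b ζ 1 = cn p b (orderOf (Units.mk0 ζ hζ)) := by
  rw [← card_filter_zpow]
  unfold mf
  rw [Bf_eq (p := p)]
  congr 1
  refine Finset.filter_congr fun m hm => ?_
  have hmb := (mem_Bp.1 hm).1
  have h1 : ((Units.mk0 ζ hζ ^ (2 * (m : ℤ) - b) : kˣ) : k) = ζ ^ m * ζ⁻¹ ^ (b - m) := by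
    have h2 : (2 * (m : ℤ) - b) = (m : ℤ) - ((b - m : ℕ) : ℤ) := by
      rw [Nat.cast_sub hmb]
      ring
    rw [h2, _root_.zpow_sub, zpow_natCast, zpow_natCast, Units.val_mul, Units.val_pow_eq_pow_val, ← inv_pow,
      Units.val_pow_eq_pow_val]
    rfl
  rw [← h1, Units.val_eq_one]

variable {ι}

theorem two_ne (hp2 : p ≠ 2) : (2 : k) ≠ 0 := by
  intro h
  have h2 : ((2 : ℕ) : k) = 0 := by exact_mod_cast h
  rw [CharP.cast_eq_zero_iff k p] at h2
  exact hp2 ((Nat.prime_dvd_prime_iff_eq hp.out Nat.prime_two).1 h2)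

theorem three_ne (hp3 : p ≠ 3) : (3 : k) ≠ 0 := by
  intro h
  have h2 : ((3 : ℕ) : k) = 0 := by exact_mod_cast h
  rw [CharP.cast_eq_zero_iff k p] at h2
  exact hp3 ((Nat.prime_dvd_prime_iff_eq hp.out Nat.prime_three).1 h2)

theorem orderOf_four (h2 : (2 : k) ≠ 0) {ζ : k} (hζ : ζ ≠ 0) (h : ζ ^ 2 = -1) : orderOf (Units.mk0 ζ hζ) = 4 := by
  have h4 : (Units.mk0 ζ hζ) ^ (2 ^ 2) = 1 := Units.ext (by
    rw [Units.val_pow_eq_pow_val]
    show ζ ^ (2 ^ 2) = 1
    linear_combination (ζ ^ 2 - 1) * h)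
  have h3 : ¬ (Units.mk0 ζ hζ) ^ (2 ^ 1) = 1 := by
    intro h1
    have h5 := congrArg Units.val h1
    rw [Units.val_pow_eq_pow_val] at h5
    have h6 : ζ ^ 2 = 1 := h5
    apply h2
    rw [h] at h6
    linear_combination -h6
  exact orderOf_eq_prime_pow h3 h4

theorem orderOf_three (h3 : (3 : k) ≠ 0) {ζ : k} (hζ : ζ ≠ 0) (h : ζ ^ 2 + ζ + 1 = 0) :
    orderOf (Units.mk0 ζ hζ) = 3 := by
  refine orderOf_eq_prime (Units.ext ?_) ?_
  · rw [Units.val_pow_eq_pow_val]
    show ζ ^ 3 = 1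
    linear_combination (ζ - 1) * h
  · intro h1
    have h2 : ζ = 1 := congrArg Units.val h1
    rw [h2] at h
    exact h3 (by linear_combination h)

theorem isSS_g4 (h2 : (2 : k) ≠ 0) {ζ : k} (h : ζ ^ 2 = -1) : IsSS ι (g4 F) ζ := by
  have hζ : ζ ≠ 0 := by
    rintro rfl
    apply one_ne_zero (α := k)
    linear_combination h
  have hinv : ζ⁻¹ = -ζ := by
    rw [inv_eq_iff_eq_inv, eq_comm, inv_eq_of_mul_eq_one_left]
    linear_combination -h
  refine isSS_of_trace ι hζ ?_ ?_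
  · rw [hinv, add_neg_cancel]
    show ι (0 + 0) = 0
    rw [add_zero, map_zero]
  · rw [hinv]
    intro h1
    apply hζ
    have : 2 * ζ = 0 := by linear_combination h1
    exact (mul_eq_zero.1 this).resolve_left h2

theorem isSS_g3 (h3 : (3 : k) ≠ 0) {ζ : k} (h : ζ ^ 2 + ζ + 1 = 0) : IsSS ι (g3 F) ζ := by
  have hζ : ζ ≠ 0 := by
    rintro rfl
    apply one_ne_zero (α := k)
    linear_combination h
  have hinv : ζ⁻¹ = ζ ^ 2 := by
    rw [inv_eq_iff_eq_inv, eq_comm, inv_eq_of_mul_eq_one_left]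
    linear_combination (ζ - 1) * h
  refine isSS_of_trace ι hζ ?_ ?_
  · rw [hinv]
    show ι (0 + -1) = ζ + ζ ^ 2
    rw [zero_add, map_neg, map_one]
    linear_combination -h
  · rw [hinv]
    intro h1
    apply h3
    have h4 : ζ = 1 := by
      have : ζ * (ζ - 1) = 0 := by linear_combination -h1
      exact sub_eq_zero.1 ((mul_eq_zero.1 this).resolve_left hζ)
    rw [h4] at h
    linear_combination h

section

variable {a : ℕ} {V : Type*} [AddCommGroup V] [Module k V]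
  {ρ : Representation k (SpecialLinearGroup (Fin 2) F) V} {n : ℕ → ℕ} (H : IsMult ι p a ρ n)

include H

theorem dim_ms : dimS p (ms p a n) = Module.finrank k V := by
  unfold dimS
  rw [sum_ms, H.dim]
  exact Finset.sum_congr rfl fun b _ => by rw [Bf_eq (p := p)]

theorem ev_ss {g : SpecialLinearGroup (Fin 2) F} {ζ : k} (hζ : ζ ≠ 0) (hg : IsSS ι g ζ) {N : ℕ} (hN : (N : k) ≠ 0)
    (ho : orderOf (Units.mk0 ζ hζ) = N) : cnS p N (ms p a n) = Module.finrank k (eig ρ g 1) := by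
  unfold cnS
  have h1 : ζ ^ N = 1 := by
    rw [← ho]
    exact congrArg Units.val (pow_orderOf_eq_one (Units.mk0 ζ hζ))
  rw [sum_ms, H.eigen g ζ N hg h1 hN 1 (one_pow _)]
  exact Finset.sum_congr rfl fun b _ => by rw [mf_eq_cn (p := p) b hζ, ho]

theorem ev_four (hp2 : p ≠ 2) [IsAlgClosed k] : cnS p 4 (ms p a n) = Module.finrank k (eig ρ (g4 F) 1) := by
  obtain ⟨ζ, hζ⟩ := IsAlgClosed.exists_pow_nat_eq (-1 : k) (n := 2) (by norm_num)
  have h2 := two_ne (k := k) hp2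
  have h0 : ζ ≠ 0 := by
    rintro rfl
    apply one_ne_zero (α := k)
    linear_combination hζ
  refine ev_ss H h0 (isSS_g4 h2 hζ) ?_ (orderOf_four h2 h0 hζ)
  have : ((4 : ℕ) : k) = 2 * 2 := by norm_num
  rw [this]
  exact mul_ne_zero h2 h2

theorem ev_three (hp3 : p ≠ 3) [IsAlgClosed k] : cnS p 3 (ms p a n) = Module.finrank k (eig ρ (g3 F) 1) := by
  have h3 := three_ne (k := k) hp3
  obtain ⟨ζ, hζ⟩ : ∃ ζ : k, ζ ^ 2 + ζ + 1 = 0 := by
    obtain ⟨z, hz⟩ := IsAlgClosed.exists_root (Polynomial.X ^ 2 + Polynomial.X + 1 : Polynomial k) (by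
      have h1 : (Polynomial.X ^ 2 + Polynomial.X + 1 : Polynomial k).degree = 2 := by
        have h2 : (Polynomial.X ^ 2 + Polynomial.X + 1 : Polynomial k) =
            Polynomial.C 1 * Polynomial.X ^ 2 + Polynomial.C 1 * Polynomial.X + Polynomial.C 1 := by
          simp
        rw [h2, Polynomial.degree_quadratic one_ne_zero]
      rw [h1]
      norm_num)
    refine ⟨z, ?_⟩
    rw [Polynomial.IsRoot.def] at hz
    simpa using hz
  have h0 : ζ ≠ 0 := by
    rintro rfl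
    apply one_ne_zero (α := k)
    linear_combination hζ
  exact ev_ss H h0 (isSS_g3 h3 hζ) (by exact_mod_cast h3) (orderOf_three h3 h0 hζ)

theorem even_ms [CharP F p] (hp2 : p ≠ 2) (hc : ρ (Cfsg.Agent.H943.SL2Rel.h (-1)) = 1) [FiniteDimensional k V] :
    ∀ b ∈ ms p a n, Even b := fun b hb => H.even ι p hp2 hc b (mem_ms.1 hb).2

/-- **`E6`, `p ≥ 5`** -/
theorem isMult_patE6 [CharP F p] [IsAlgClosed k] [FiniteDimensional k V] (hp5 : 5 ≤ p)
    (hc : ρ (Cfsg.Agent.H943.SL2Rel.h (-1)) = 1) (hd : Module.finrank k V = 27)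
    (h4 : Module.finrank k (eig ρ (g4 F) 1) = 15 ∨ Module.finrank k (eig ρ (g4 F) 1) = 11)
    (h3 : Module.finrank k (eig ρ (g3 F) 1) = 15 ∨ Module.finrank k (eig ρ (g3 F) 1) = 9) :
    ∃ w ∈ listE6, (w : Multiset (List ℕ)) = (ms p a n).map (tyl p) :=
  patE6 hp5 _ (even_ms H (by omega) hc) ((dim_ms H).trans hd) (by rwa [ev_four H (by omega)])
    (by rwa [ev_three H (by omega)])

theorem isMult_patE6_three [CharP F p] [IsAlgClosed k] [FiniteDimensional k V] (hp3 : p = 3)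
    (hc : ρ (Cfsg.Agent.H943.SL2Rel.h (-1)) = 1) (hd : Module.finrank k V = 27)
    (h4 : Module.finrank k (eig ρ (g4 F) 1) = 15 ∨ Module.finrank k (eig ρ (g4 F) 1) = 11) :
    ∃ w ∈ listE6_3, (w : Multiset (List ℕ)) = (ms p a n).map (tyl p) :=
  patE6_three hp3 _ (even_ms H (by omega) hc) ((dim_ms H).trans hd) (by rwa [ev_four H (by omega)])

theorem isMult_patE6_two [CharP F p] [IsAlgClosed k] [FiniteDimensional k V] (hp2 : p = 2)
    (hd : Module.finrank k V = 27)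
    (h3 : Module.finrank k (eig ρ (g3 F) 1) = 15 ∨ Module.finrank k (eig ρ (g3 F) 1) = 9) :
    ∃ w ∈ listE6_2, (w : Multiset (List ℕ)) = (ms p a n).map (tyl p) :=
  patE6_two hp2 _ ((dim_ms H).trans hd) (by rwa [ev_three H (by omega)])

/-- **`F4`, `p ≥ 5`** -/
theorem isMult_patF4 [CharP F p] [IsAlgClosed k] [FiniteDimensional k V] (hp5 : 5 ≤ p)
    (hc : ρ (Cfsg.Agent.H943.SL2Rel.h (-1)) = 1) (hd : Module.finrank k V = 26)
    (h4 : Module.finrank k (eig ρ (g4 F) 1) = 14 ∨ Module.finrank k (eig ρ (g4 F) 1) = 10)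
    (h3 : Module.finrank k (eig ρ (g3 F) 1) = 14 ∨ Module.finrank k (eig ρ (g3 F) 1) = 8) :
    ∃ w ∈ listF4, (w : Multiset (List ℕ)) = (ms p a n).map (tyl p) :=
  patF4 hp5 _ (even_ms H (by omega) hc) ((dim_ms H).trans hd) (by rwa [ev_four H (by omega)])
    (by rwa [ev_three H (by omega)])

theorem isMult_patF4_three [CharP F p] [IsAlgClosed k] [FiniteDimensional k V] (hp3 : p = 3)
    (hc : ρ (Cfsg.Agent.H943.SL2Rel.h (-1)) = 1) (hd : Module.finrank k V = 26)
    (h4 : Module.finrank k (eig ρ (g4 F) 1) = 14 ∨ Module.finrank k (eig ρ (g4 F) 1) = 10) :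
    ∃ w ∈ listF4_3, (w : Multiset (List ℕ)) = (ms p a n).map (tyl p) :=
  patF4_three hp3 _ (even_ms H (by omega) hc) ((dim_ms H).trans hd) (by rwa [ev_four H (by omega)])

theorem isMult_patF4_two [CharP F p] [IsAlgClosed k] [FiniteDimensional k V] (hp2 : p = 2)
    (hd : Module.finrank k V = 26)
    (h3 : Module.finrank k (eig ρ (g3 F) 1) = 14 ∨ Module.finrank k (eig ρ (g3 F) 1) = 8) :
    ∃ w ∈ listF4_2, (w : Multiset (List ℕ)) = (ms p a n).map (tyl p) :=
  patF4_two hp2 _ ((dim_ms H).trans hd) (by rwa [ev_three H (by omega)])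

end

end Cfsg.Agent.R2.SL2
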