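import Cfsg.Agent.R2.SL2.Dig

/-!
# Fixed spaces of elements of order 2 and 3 on `V_b` (R2/SL2, helper17)

* `cn p b n` : the number of `m ∈ Bp p b` with `n ∣ 2 m - b`;
* `card_filter_zpow` : `#{m ∈ Bp p b | x ^ (2 m - b) = 1} = cn p b (orderOf x)`;
* `cn_four` : `2 cn p b 4 = |Bp p b| + ∏ t2 b_i` for `b` even, `p ≠ 2`;
* `cn_three` : `3 cn p b 3 = |Bp p b| + 2 ∏ t3 b_i`, `p ≠ 3`;
* `even_iff` : for `p` odd, `b` is even if and only if the sum of its digits is even.
-/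

set_option autoImplicit false

namespace Cfsg.Agent.R2.SL2

open Finset

/-- the number of `m ∈ Bp p b` with `n ∣ 2 m - b` -/
def cn (p b n : ℕ) : ℕ := ((Bp p b).filter fun m : ℕ => (n : ℤ) ∣ 2 * (m : ℤ) - b).card

theorem card_filter_zpow {G : Type*} [Group G] [DecidableEq G] (p b : ℕ) (x : G) :
    ((Bp p b).filter fun m : ℕ => x ^ (2 * (m : ℤ) - b) = 1).card = cn p b (orderOf x) := by
  unfold cn
  congr 1
  refine Finset.filter_congr fun m _ => ?_
  rw [orderOf_dvd_iff_zpow_eq_one]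

theorem even_iff {p : ℕ} [hp : Fact p.Prime] (hp2 : p ≠ 2) (b : ℕ) : Even b ↔ Even (typ p b).sum := by
  refine rec_digits (p := p) (P := fun b => Even b ↔ Even (typ p b).sum) ?_ ?_ b
  · rw [typ_zero, Multiset.sum_zero]
  · intro b hb ih
    have hodd : Odd p := (hp.out.eq_two_or_odd').resolve_left hp2
    have h1 : (typ p b).sum = b % p + (typ p (b / p)).sum := by
      rw [typ_step hp.out.one_lt hb, Multiset.sum_add]
      split_ifs with h
      · rw [h, Multiset.sum_zero]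
      · rw [Multiset.sum_singleton]
    rw [h1, Nat.even_add, ← ih]
    conv_lhs => rw [← Nat.div_add_mod b p, Nat.even_add, Nat.even_mul]
    rw [← Nat.not_even_iff_odd] at hodd
    tauto

section

variable {p : ℕ} [hp : Fact p.Prime]

omit hp in
theorem Bp_symm {b m : ℕ} (h : m ∈ Bp p b) : b - m ∈ Bp p b := by
  rw [mem_Bp] at h ⊢
  refine ⟨Nat.sub_le _ _, ?_⟩
  rw [Nat.choose_symm h.1]
  exact h.2

theorem cn_four (hp2 : p ≠ 2) {b : ℕ} (hb : Even b) :
    2 * (cn p b 4 : ℤ) = (Bp p b).card + pr t2 (typ p b) := by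
  have h1 : ch p b (Units.mk0 Complex.I Complex.I_ne_zero) = ((pr t2 (typ p b) : ℤ) : ℂ) :=
    ch_four hp2 b (x := Units.mk0 Complex.I Complex.I_ne_zero) Complex.I_sq
  have h2 : ∀ m ∈ Bp p b, (((Units.mk0 Complex.I Complex.I_ne_zero) ^ (2 * (m : ℤ) - b) : ℂˣ) : ℂ) =
      if (4 : ℤ) ∣ 2 * (m : ℤ) - b then 1 else -1 := by
    intro m _
    obtain ⟨c, hc⟩ := hb
    have h4 : (2 * (m : ℤ) - b) = 2 * ((m : ℤ) - c) := by rw [hc]; push_cast; ring
    rw [h4, zpow_mul, Units.val_zpow_eq_zpow_val]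
    have h5 : (((Units.mk0 Complex.I Complex.I_ne_zero) ^ (2 : ℤ) : ℂˣ) : ℂ) = -1 := by
      rw [Units.val_zpow_eq_zpow_val]
      show Complex.I ^ (2 : ℤ) = -1
      exact_mod_cast Complex.I_sq
    rw [h5]
    by_cases h : (4 : ℤ) ∣ 2 * ((m : ℤ) - c)
    · rw [if_pos h]
      exact Even.neg_one_zpow (by rw [even_iff_two_dvd]; omega)
    · rw [if_neg h]
      exact Odd.neg_one_zpow (by rw [← Int.not_even_iff_odd, even_iff_two_dvd]; omega)
  have h3 : ((2 * (cn p b 4 : ℤ) - (Bp p b).card : ℤ) : ℂ) = ((pr t2 (typ p b) : ℤ) : ℂ) := by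
    rw [← h1]
    unfold ch
    rw [Finset.sum_congr rfl h2, Finset.sum_ite, Finset.sum_const, Finset.sum_const]
    have h6 : ((Bp p b).filter fun m : ℕ => (4 : ℤ) ∣ 2 * (m : ℤ) - b).card +
        ((Bp p b).filter fun m : ℕ => ¬ (4 : ℤ) ∣ 2 * (m : ℤ) - b).card = (Bp p b).card :=
      Finset.card_filter_add_card_filter_not _
    have h7 : cn p b 4 = ((Bp p b).filter fun m : ℕ => (4 : ℤ) ∣ 2 * (m : ℤ) - b).card := rfl
    rw [← h7] at h6 ⊢
    rw [← h6]
    simp only [nsmul_eq_mul]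
    push_cast
    ring
  have h8 := Int.cast_injective h3
  linarith

theorem cn_three (hp3 : p ≠ 3) (b : ℕ) : 3 * (cn p b 3 : ℤ) = (Bp p b).card + 2 * pr t3 (typ p b) := by
  obtain ⟨w, hw⟩ : ∃ w : ℂˣ, (w : ℂ) ^ 2 + w + 1 = 0 := by
    have h := Complex.isPrimitiveRoot_exp 3 (by norm_num)
    have h0 : Complex.exp (2 * Real.pi * Complex.I / (3 : ℕ)) ≠ 0 := Complex.exp_ne_zero _
    refine ⟨Units.mk0 _ h0, ?_⟩
    show Complex.exp (2 * Real.pi * Complex.I / (3 : ℕ)) ^ 2 + Complex.exp (2 * Real.pi * Complex.I / (3 : ℕ)) + 1 = 0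
    have hg := h.geom_sum_eq_zero (by norm_num)
    rw [Finset.sum_range_succ, Finset.sum_range_succ, Finset.sum_range_one] at hg
    linear_combination hg
  have h1 : ch p b w = ((pr t3 (typ p b) : ℤ) : ℂ) := ch_three hp3 b hw
  have hw3 : w ^ 3 = 1 := Units.ext (by
    rw [Units.val_pow_eq_pow_val, Units.val_one]
    linear_combination ((w : ℂ) - 1) * hw)
  have hsum : ∀ z : ℤ, ((w ^ z : ℂˣ) : ℂ) + ((w ^ (-z) : ℂˣ) : ℂ) = if (3 : ℤ) ∣ z then 2 else -1 := by
    intro z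
    have hmod : ∀ y : ℤ, w ^ y = w ^ (y % 3) := by
      intro y
      conv_lhs => rw [← Int.mul_ediv_add_emod y 3, zpow_add, zpow_mul, show w ^ (3 : ℤ) = 1 from by exact_mod_cast hw3,
        one_zpow, one_mul]
    have hlt : z % 3 < 3 := Int.emod_lt_of_pos _ (by norm_num)
    have hge : 0 ≤ z % 3 := Int.emod_nonneg _ (by norm_num)
    have hw2 : ((w ^ (2 : ℤ) : ℂˣ) : ℂ) = (w : ℂ) ^ 2 := by
      rw [Units.val_zpow_eq_zpow_val]
      exact_mod_cast rfl
    rcases (by omega : z % 3 = 0 ∨ z % 3 = 1 ∨ z % 3 = 2) with h | h | h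
    · rw [if_pos (by omega), hmod z, hmod (-z), h, (by omega : (-z) % 3 = 0), zpow_zero, Units.val_one]
      norm_num
    · rw [if_neg (by omega), hmod z, hmod (-z), h, (by omega : (-z) % 3 = 2), zpow_one, hw2]
      linear_combination hw
    · rw [if_neg (by omega), hmod z, hmod (-z), h, (by omega : (-z) % 3 = 1), zpow_one, hw2]
      linear_combination hw
  have hflip : ch p b w = ∑ m ∈ Bp p b, ((w ^ (-(2 * (m : ℤ) - b)) : ℂˣ) : ℂ) := by
    unfold ch
    refine Finset.sum_nbij' (fun m => b - m) (fun m => b - m) (fun m hm => Bp_symm hm) (fun m hm => Bp_symm hm) ?_ ?_ ?_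
    · intro m hm
      have := (mem_Bp.1 hm).1
      show b - (b - m) = m
      omega
    · intro m hm
      have := (mem_Bp.1 hm).1
      show b - (b - m) = m
      omega
    · intro m hm
      have := (mem_Bp.1 hm).1
      congr 2
      rw [Nat.cast_sub this]
      ring
  have h3 : ((3 * (cn p b 3 : ℤ) - (Bp p b).card : ℤ) : ℂ) = ((2 * pr t3 (typ p b) : ℤ) : ℂ) := by
    have h4 : ((2 * pr t3 (typ p b) : ℤ) : ℂ) = ch p b w + ch p b w := by
      push_cast
      rw [h1]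
      ring
    rw [h4]
    nth_rw 2 [hflip]
    unfold ch
    rw [← Finset.sum_add_distrib, Finset.sum_congr rfl fun (m : ℕ) _ => hsum (2 * (m : ℤ) - b), Finset.sum_ite,
      Finset.sum_const, Finset.sum_const]
    have h6 : ((Bp p b).filter fun m : ℕ => (3 : ℤ) ∣ 2 * (m : ℤ) - b).card +
        ((Bp p b).filter fun m : ℕ => ¬ (3 : ℤ) ∣ 2 * (m : ℤ) - b).card = (Bp p b).card :=
      Finset.card_filter_add_card_filter_not _
    have h7 : cn p b 3 = ((Bp p b).filter fun m : ℕ => (3 : ℤ) ∣ 2 * (m : ℤ) - b).card := rfl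
    rw [← h7] at h6 ⊢
    rw [← h6]
    simp only [nsmul_eq_mul]
    push_cast
    ring
  have h8 := Int.cast_injective h3
  linarith

end

end Cfsg.Agent.R2.SL2
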