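import Mathlib

/-!
# Characters of the modules `V_b` in terms of the digits of `b` (R2/SL2, helper17)

`Bp p b` : the exponents `m ≤ b` with `p ∤ C(b, m)`; `ch p b x = ∑_{m ∈ Bp p b} x ^ (2 m - b)` for a unit `x` of a
commutative ring; `chd d x = ∑_{j ≤ d} x ^ (2 j - d)`.

* `ch_eq` : `ch p b x = chd (b % p) x * ch p (b / p) (x ^ p)` (Lucas);
* `card_Bp` : `|Bp p b| = ∏ (b_i + 1)`;
* `ch_four` : `x² = -1`, `p` odd: `ch p b x = ∏ t2 b_i`;
* `ch_three` : `x² + x + 1 = 0`, `p ≠ 3`: `ch p b x = ∏ t3 b_i`.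
-/

set_option autoImplicit false

namespace Cfsg.Agent.R2.SL2

open Finset

/-- the exponents `m ≤ b` with `p ∤ C(b, m)` -/
def Bp (p b : ℕ) : Finset ℕ := (range (b + 1)).filter fun m => ¬ p ∣ b.choose m

theorem mem_Bp {p b m : ℕ} : m ∈ Bp p b ↔ m ≤ b ∧ ¬ p ∣ b.choose m := by
  unfold Bp
  rw [mem_filter, mem_range, Nat.lt_succ_iff]

variable {R : Type*} [CommRing R]

/-- the character of the module of dimension `d + 1` -/
def chd (d : ℕ) (x : Rˣ) : R := ∑ j ∈ range (d + 1), ((x ^ (2 * (j : ℤ) - d) : Rˣ) : R)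

/-- the character of `V_b` -/
def ch (p b : ℕ) (x : Rˣ) : R := ∑ m ∈ Bp p b, ((x ^ (2 * (m : ℤ) - b) : Rˣ) : R)

section

variable {p : ℕ} [hp : Fact p.Prime]

theorem not_dvd_choose {n m : ℕ} (hn : n < p) (hm : m ≤ n) : ¬ p ∣ n.choose m := by
  intro h
  have h1 : n.choose m * m.factorial * (n - m).factorial = n.factorial := Nat.choose_mul_factorial_mul_factorial hm
  have h2 : p ∣ n.factorial := h1 ▸ (h.mul_right _).mul_right _
  exact absurd ((Nat.Prime.dvd_factorial hp.out).1 h2) (not_le.2 hn)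

/-- Lucas -/
theorem dvd_choose_iff (b m : ℕ) :
    ¬ p ∣ b.choose m ↔ m % p ≤ b % p ∧ ¬ p ∣ (b / p).choose (m / p) := by
  have h := Choose.choose_modEq_choose_mod_mul_choose_div_nat (n := b) (k := m) (p := p)
  rw [h.dvd_iff (dvd_refl p), hp.out.dvd_mul, not_or]
  have hb : b % p < p := Nat.mod_lt _ hp.out.pos
  constructor
  · rintro ⟨h1, h2⟩
    refine ⟨?_, h2⟩
    by_contra hlt
    rw [Nat.choose_eq_zero_of_lt (not_le.1 hlt)] at h1
    exact h1 (dvd_zero p)
  · rintro ⟨h1, h2⟩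
    exact ⟨not_dvd_choose hb h1, h2⟩

theorem mem_Bp_iff (b m : ℕ) : m ∈ Bp p b ↔ m % p ≤ b % p ∧ m / p ∈ Bp p (b / p) := by
  rw [mem_Bp, mem_Bp, dvd_choose_iff]
  constructor
  · rintro ⟨h1, h2, h3⟩
    exact ⟨h2, Nat.div_le_div_right h1, h3⟩
  · rintro ⟨h1, h2, h3⟩
    refine ⟨?_, h1, h3⟩
    rw [← Nat.div_add_mod b p, ← Nat.div_add_mod m p]
    exact Nat.add_le_add (Nat.mul_le_mul_left _ h2) h1

theorem sum_Bp {M : Type*} [AddCommMonoid M] (b : ℕ) (f : ℕ → M) :
    ∑ m ∈ Bp p b, f m = ∑ m' ∈ Bp p (b / p), ∑ j ∈ range (b % p + 1), f (p * m' + j) := by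
  have hpos := hp.out.pos
  have hb : b % p < p := Nat.mod_lt _ hpos
  rw [← Finset.sum_product' (f := fun m' j => f (p * m' + j))]
  refine Finset.sum_nbij' (fun m => (m / p, m % p)) (fun z => p * z.1 + z.2) ?_ ?_ ?_ ?_ ?_
  · intro m hm
    rw [mem_Bp_iff] at hm
    exact mem_product.2 ⟨hm.2, mem_range.2 (Nat.lt_succ_iff.2 hm.1)⟩
  · rintro ⟨m', j⟩ hz
    rw [mem_product] at hz
    have hj : j < b % p + 1 := mem_range.1 hz.2
    have hj' : j < p := by omega
    show p * m' + j ∈ Bp p b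
    rw [mem_Bp_iff, Nat.mul_add_mod, Nat.mod_eq_of_lt hj', Nat.mul_add_div hpos, Nat.div_eq_of_lt hj', add_zero]
    exact ⟨Nat.lt_succ_iff.1 hj, hz.1⟩
  · intro m _
    exact Nat.div_add_mod m p
  · rintro ⟨m', j⟩ hz
    rw [mem_product] at hz
    have hj : j < b % p + 1 := mem_range.1 hz.2
    have hj' : j < p := by omega
    show ((p * m' + j) / p, (p * m' + j) % p) = (m', j)
    rw [Nat.mul_add_mod, Nat.mod_eq_of_lt hj', Nat.mul_add_div hpos, Nat.div_eq_of_lt hj', add_zero]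
  · intro m _
    rw [Nat.div_add_mod]

/-- **the recursion** -/
theorem ch_eq (b : ℕ) (x : Rˣ) : ch p b x = chd (b % p) x * ch p (b / p) (x ^ p) := by
  unfold ch chd
  rw [sum_Bp, Finset.sum_mul_sum, Finset.sum_comm]
  refine Finset.sum_congr rfl fun j _ => Finset.sum_congr rfl fun m' _ => ?_
  rw [← Units.val_mul]
  congr 1
  rw [← zpow_natCast, ← zpow_mul, ← zpow_add]
  congr 1
  have h : (b : ℤ) = p * (b / p : ℕ) + (b % p : ℕ) := by
    exact_mod_cast (Nat.div_add_mod b p).symm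
  rw [h]
  push_cast
  ring

theorem Bp_zero : Bp p 0 = {0} := by
  ext m
  rw [mem_Bp, mem_singleton]
  constructor
  · rintro ⟨h, -⟩
    omega
  · rintro rfl
    exact ⟨le_rfl, by rw [Nat.choose_self]; exact hp.out.one_lt.not_ge ∘ Nat.le_of_dvd one_pos⟩

theorem ch_zero (x : Rˣ) : ch p 0 x = 1 := by
  unfold ch
  rw [Bp_zero, Finset.sum_singleton]
  simp

end

/-- the nonzero digits -/
def typ (p b : ℕ) : Multiset ℕ := (((Nat.digits p b).filter (fun d => d ≠ 0) : List ℕ) : Multiset ℕ)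

/-- `∏ f (b_i)` over the nonzero digits -/
def pr {M : Type*} [CommMonoid M] (f : ℕ → M) (s : Multiset ℕ) : M := (s.map f).prod

theorem typ_zero (p : ℕ) : typ p 0 = 0 := by
  unfold typ
  rw [Nat.digits_zero]
  rfl

theorem pr_zero {M : Type*} [CommMonoid M] (f : ℕ → M) : pr f 0 = 1 := by
  unfold pr
  rw [Multiset.map_zero, Multiset.prod_zero]

theorem typ_step {p : ℕ} (hp : 1 < p) {b : ℕ} (hb : b ≠ 0) :
    typ p b = (if b % p = 0 then 0 else {b % p}) + typ p (b / p) := by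
  unfold typ
  rw [Nat.digits_def' hp (Nat.pos_of_ne_zero hb), List.filter_cons]
  split_ifs with h1 h2 h2
  · simp only [decide_eq_true_eq] at h1
    exact absurd h2 h1
  · rw [← Multiset.cons_coe]
    rfl
  · rw [zero_add]
  · simp only [decide_eq_true_eq, not_not] at h1
    exact absurd h1 h2

theorem pr_step {M : Type*} [CommMonoid M] {f : ℕ → M} (hf : f 0 = 1) {p : ℕ} (hp : 1 < p) {b : ℕ} (hb : b ≠ 0) :
    pr f (typ p b) = f (b % p) * pr f (typ p (b / p)) := by
  rw [typ_step hp hb]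
  unfold pr
  rw [Multiset.map_add, Multiset.prod_add]
  split_ifs with h
  · rw [h, hf, Multiset.map_zero, Multiset.prod_zero]
  · rw [Multiset.map_singleton, Multiset.prod_singleton]

theorem mem_typ {p : ℕ} (hp : 1 < p) {b d : ℕ} (h : d ∈ typ p b) : 1 ≤ d ∧ d < p := by
  unfold typ at h
  rw [Multiset.mem_coe, List.mem_filter] at h
  refine ⟨Nat.one_le_iff_ne_zero.2 (by simpa using h.2), Nat.digits_lt_base hp h.1⟩

section

variable {p : ℕ} [hp : Fact p.Prime]

/-- induction on the digits -/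
theorem rec_digits {P : ℕ → Prop} (h0 : P 0) (hs : ∀ b, b ≠ 0 → P (b / p) → P b) (b : ℕ) : P b := by
  induction b using Nat.strong_induction_on with
  | _ b ih =>
    by_cases hb : b = 0
    · rw [hb]; exact h0
    · exact hs b hb (ih _ (Nat.div_lt_self (Nat.pos_of_ne_zero hb) hp.out.one_lt))

/-- **the dimension** -/
theorem card_Bp (b : ℕ) : (Bp p b).card = pr (fun d => d + 1) (typ p b) := by
  refine rec_digits (p := p) (P := fun b => (Bp p b).card = pr (fun d => d + 1) (typ p b)) ?_ ?_ b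
  · show (Bp p 0).card = _
    rw [Bp_zero, typ_zero, pr_zero, card_singleton]
  · intro b hb ih
    show (Bp p b).card = _
    rw [pr_step (f := fun d => d + 1) rfl hp.out.one_lt hb, ← ih, card_eq_sum_ones, sum_Bp]
    simp only [sum_const, card_range, smul_eq_mul, mul_one]
    ring

/-- the trace of an element of order 4 -/
def t2 (d : ℕ) : ℤ := if d % 4 = 0 then 1 else if d % 4 = 2 then -1 else 0

/-- the trace of an element of order 3 -/
def t3 (d : ℕ) : ℤ := if d % 3 = 0 then 1 else if d % 3 = 1 then -1 else 0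

theorem chd_eq (d : ℕ) (x : Rˣ) : chd d x = ((x ^ (-(d : ℤ)) : Rˣ) : R) * ∑ j ∈ range (d + 1), ((x : R) ^ 2) ^ j := by
  unfold chd
  rw [Finset.mul_sum]
  refine Finset.sum_congr rfl fun j _ => ?_
  have h : ((x : R) ^ 2) ^ j = ((x ^ (2 * (j : ℤ)) : Rˣ) : R) := by
    rw [← pow_mul, ← Units.val_pow_eq_pow_val, ← zpow_natCast]
    push_cast
    rfl
  rw [h, ← Units.val_mul, ← zpow_add]
  congr 2
  ring

theorem sum_neg_one (d : ℕ) : ∑ j ∈ range (d + 1), (-1 : R) ^ j = if d % 2 = 0 then 1 else 0 := by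
  induction d with
  | zero => simp
  | succ d ih =>
    rw [Finset.sum_range_succ, ih]
    rcases Nat.even_or_odd d with h | h
    · rw [if_pos (Nat.even_iff.1 h), if_neg (by rw [Nat.even_iff] at h; omega), (h.add_one).neg_one_pow]
      ring
    · rw [if_neg (by rw [Nat.odd_iff] at h; omega), if_pos (by rw [Nat.odd_iff] at h; omega), (h.add_one).neg_one_pow]
      ring

theorem chd_four (d : ℕ) {x : Rˣ} (hx : (x : R) ^ 2 = -1) : chd d x = (t2 d : R) := by
  rw [chd_eq, hx, sum_neg_one]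
  have hx4 : x ^ 4 = 1 := by
    apply Units.ext
    rw [Units.val_pow_eq_pow_val, show 4 = 2 * 2 from rfl, pow_mul, hx]
    simp
  have hx2 : x ^ 2 = -1 := Units.ext (by rw [Units.val_pow_eq_pow_val, hx]; simp)
  unfold t2
  split_ifs with h1 h2 h3 h3 h4
  · obtain ⟨k, hk⟩ : ∃ k, d = 4 * k := ⟨d / 4, by omega⟩
    rw [hk, zpow_neg, zpow_natCast, pow_mul, hx4, one_pow, inv_one]
    simp
  · obtain ⟨k, hk⟩ : ∃ k, d = 4 * k + 2 := ⟨d / 4, by omega⟩
    rw [hk, zpow_neg, zpow_natCast, pow_add, pow_mul, hx4, one_pow, one_mul, hx2]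
    simp
  · omega
  · omega
  · omega
  · simp

theorem chd_three (d : ℕ) {x : Rˣ} (hx : (x : R) ^ 2 + x + 1 = 0) : chd d x = (t3 d : R) := by
  have hx3 : (x : R) ^ 3 = 1 := by linear_combination ((x : R) - 1) * hx
  have hx3' : x ^ 3 = 1 := Units.ext (by rw [Units.val_pow_eq_pow_val, hx3]; rfl)
  have hinv : ((x⁻¹ : Rˣ) : R) = (x : R) ^ 2 := by
    have : x⁻¹ = x ^ 2 := by
      rw [inv_eq_iff_mul_eq_one, ← pow_succ']
      exact hx3'
    rw [this, Units.val_pow_eq_pow_val]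
  have hs : ∀ d : ℕ, ∑ j ∈ range (d + 1), ((x : R) ^ 2) ^ j = if d % 3 = 0 then 1 else if d % 3 = 1 then -(x : R) else 0 := by
    intro d
    induction d with
    | zero => simp
    | succ d ih =>
      rw [Finset.sum_range_succ, ih, ← pow_mul]
      have h3 : ∀ k r : ℕ, (x : R) ^ (3 * k + r) = (x : R) ^ r := by
        intro k r
        rw [pow_add, pow_mul, hx3, one_pow, one_mul]
      obtain ⟨k, hk⟩ : ∃ k, d = 3 * k + d % 3 := ⟨d / 3, by omega⟩
      have hlt : d % 3 < 3 := Nat.mod_lt _ (by norm_num)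
      generalize hr : d % 3 = r at hk hlt
      interval_cases r
      · rw [if_pos rfl, if_neg (by omega), if_pos (by omega), hk,
          show 2 * (3 * k + 0 + 1) = 3 * (2 * k) + 2 by ring, h3]
        linear_combination hx
      · rw [if_neg (by norm_num), if_pos rfl, if_neg (by omega), if_neg (by omega), hk,
          show 2 * (3 * k + 1 + 1) = 3 * (2 * k + 1) + 1 by ring, h3]
        ring
      · rw [if_neg (by norm_num), if_neg (by norm_num), if_pos (by omega), hk,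
          show 2 * (3 * k + 2 + 1) = 3 * (2 * k + 2) + 0 by ring, h3]
        ring
  rw [chd_eq, hs]
  unfold t3
  have hz : ∀ k r : ℕ, ((x ^ (-((3 * k + r : ℕ) : ℤ)) : Rˣ) : R) = ((x : R) ^ 2) ^ r := by
    intro k r
    rw [zpow_neg, zpow_natCast, pow_add, pow_mul, hx3', one_pow, one_mul, ← inv_pow, Units.val_pow_eq_pow_val, hinv]
  obtain ⟨k, hk⟩ : ∃ k, d = 3 * k + d % 3 := ⟨d / 3, by omega⟩
  have hlt : d % 3 < 3 := Nat.mod_lt _ (by norm_num)
  generalize hr : d % 3 = r at hk hlt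
  interval_cases r
  · rw [hk, hz]
    simp
  · rw [if_neg (by norm_num), if_pos rfl, if_neg (by norm_num), if_pos rfl, hk, hz]
    push_cast
    linear_combination (-1 : R) * hx3
  · simp

theorem ch_four (hp2 : p ≠ 2) (b : ℕ) : ∀ {x : Rˣ}, (x : R) ^ 2 = -1 → ch p b x = ((pr t2 (typ p b) : ℤ) : R) := by
  refine rec_digits (p := p) (P := fun b => ∀ {x : Rˣ}, (x : R) ^ 2 = -1 → ch p b x = ((pr t2 (typ p b) : ℤ) : R))
    ?_ ?_ b
  · intro x _
    rw [ch_zero, typ_zero, pr_zero]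
    simp
  · intro b hb ih x hx
    have hodd : Odd p := (hp.out.eq_two_or_odd').resolve_left hp2
    rw [ch_eq, pr_step (f := t2) rfl hp.out.one_lt hb, chd_four _ hx, ih (x := x ^ p) (by
      rw [Units.val_pow_eq_pow_val, ← pow_mul, mul_comm, pow_mul, hx, hodd.neg_one_pow])]
    push_cast
    rfl

theorem ch_three (hp3 : p ≠ 3) (b : ℕ) : ∀ {x : Rˣ}, (x : R) ^ 2 + x + 1 = 0 → ch p b x = ((pr t3 (typ p b) : ℤ) : R) := by
  refine rec_digits (p := p) (P := fun b => ∀ {x : Rˣ}, (x : R) ^ 2 + x + 1 = 0 → ch p b x = ((pr t3 (typ p b) : ℤ) : R))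
    ?_ ?_ b
  · intro x _
    rw [ch_zero, typ_zero, pr_zero]
    simp
  · intro b hb ih x hx
    have hx3 : (x : R) ^ 3 = 1 := by linear_combination ((x : R) - 1) * hx
    rw [ch_eq, pr_step (f := t3) rfl hp.out.one_lt hb, chd_three _ hx, ih (x := x ^ p) (by
      rw [Units.val_pow_eq_pow_val]
      have hm : p % 3 ≠ 0 := fun h => hp3 ((Nat.prime_dvd_prime_iff_eq Nat.prime_three hp.out).1
        (Nat.dvd_of_mod_eq_zero h)).symm
      have hpow : ∀ k r : ℕ, (x : R) ^ (3 * k + r) = (x : R) ^ r := by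
        intro k r
        rw [pow_add, pow_mul, hx3, one_pow, one_mul]
      rw [← Nat.div_add_mod p 3, hpow]
      have hlt : p % 3 < 3 := Nat.mod_lt _ (by norm_num)
      generalize p % 3 = r at hm hlt
      interval_cases r
      · exact absurd rfl hm
      · rw [pow_one]; exact hx
      · linear_combination hx + (x : R) * hx3)]
    push_cast
    rfl

end

end Cfsg.Agent.R2.SL2
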